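import Mathlib

set_option autoImplicit false

namespace Cfsg.Agent.Helper16

/-- the reference involution `(0 1)(2 3)` of the alternating group of degree six -/
def a6z0 : Equiv.Perm (Fin 6) := Equiv.swap 0 1 * Equiv.swap 2 3

set_option maxRecDepth 100000 in
theorem a6z0_cent_card :
    (Finset.univ.filter (fun g : Equiv.Perm (Fin 6) =>
      Equiv.Perm.sign g = 1 ∧ g * a6z0 = a6z0 * g)).card = 8 := by
  decide +kernel

set_option maxRecDepth 100000 in
theorem a6z0_inv3_card :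
    (Finset.univ.filter (fun c : Equiv.Perm (Fin 6) =>
      Equiv.Perm.sign c = 1 ∧ c ^ 3 = 1 ∧ c ≠ 1 ∧ a6z0 * c * a6z0⁻¹ = c⁻¹)).card = 16 := by
  decide +kernel

set_option maxRecDepth 100000 in
theorem a6z0_inv5_card :
    (Finset.univ.filter (fun c : Equiv.Perm (Fin 6) =>
      Equiv.Perm.sign c = 1 ∧ c ^ 5 = 1 ∧ c ≠ 1 ∧ a6z0 * c * a6z0⁻¹ = c⁻¹)).card = 16 := by
  decide +kernel

set_option maxRecDepth 100000 in
theorem a6z0_cycleType : a6z0.cycleType = {2, 2} := by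
  decide +kernel

set_option maxRecDepth 100000 in
theorem a6_pow_cases : ∀ σ : Equiv.Perm (Fin 6), Equiv.Perm.sign σ = 1 →
    σ ^ 4 = 1 ∨ σ ^ 3 = 1 ∨ σ ^ 5 = 1 := by
  decide +kernel

set_option maxRecDepth 100000 in
theorem a6_invol_cycleType : ∀ σ : Equiv.Perm (Fin 6), Equiv.Perm.sign σ = 1 →
    σ * σ = 1 → σ ≠ 1 → σ.cycleType = {2, 2} := by
  decide +kernel

end Cfsg.Agent.Helper16
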