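import Mathlib
import Cfsg.Agent.Helper16.A6Dec

set_option autoImplicit false

namespace Cfsg.Agent.Helper16

/-- every even involution of six points is conjugate to the reference one -/
theorem a6_invol_conj (z : Equiv.Perm (Fin 6)) (hs : Equiv.Perm.sign z = 1)
    (h2 : z * z = 1) (h1 : z ≠ 1) : ∃ τ : Equiv.Perm (Fin 6), τ * a6z0 * τ⁻¹ = z := by
  have hct : a6z0.cycleType = z.cycleType := by
    rw [a6z0_cycleType, a6_invol_cycleType z hs h2 h1]
  exact isConj_iff.1 ((Equiv.Perm.isConj_iff_cycleType_eq).2 hct)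

theorem a6_conj_equiv (z : Equiv.Perm (Fin 6)) (hs : Equiv.Perm.sign z = 1)
    (h2 : z * z = 1) (h1 : z ≠ 1) :
    ∃ φ : Equiv.Perm (Fin 6) ≃* Equiv.Perm (Fin 6), φ z = a6z0 ∧
      ∀ g, Equiv.Perm.sign (φ g) = Equiv.Perm.sign g := by
  obtain ⟨τ, hτ⟩ := a6_invol_conj z hs h2 h1
  refine ⟨MulAut.conj τ⁻¹, ?_, ?_⟩
  · rw [← hτ, MulAut.conj_apply]; group
  · intro g
    rw [MulAut.conj_apply, inv_inv, map_mul, map_mul, map_inv, mul_right_comm, inv_mul_cancel,
      one_mul]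

theorem a6_cent_le (z : Equiv.Perm (Fin 6)) (hs : Equiv.Perm.sign z = 1)
    (h2 : z * z = 1) (h1 : z ≠ 1) (S : Finset (Equiv.Perm (Fin 6)))
    (hS : ∀ g ∈ S, Equiv.Perm.sign g = 1 ∧ g * z = z * g) : S.card ≤ 8 := by
  obtain ⟨φ, hφz, hφs⟩ := a6_conj_equiv z hs h2 h1
  rw [← Finset.card_image_of_injective S φ.injective, ← a6z0_cent_card]
  apply Finset.card_le_card
  intro g' hg'
  obtain ⟨g, hg, rfl⟩ := Finset.mem_image.1 hg'
  rw [Finset.mem_filter]
  refine ⟨Finset.mem_univ _, ?_, ?_⟩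
  · rw [hφs]; exact (hS g hg).1
  · have := congrArg φ (hS g hg).2
    rwa [map_mul, map_mul, hφz] at this

theorem a6_inv_le (z : Equiv.Perm (Fin 6)) (hs : Equiv.Perm.sign z = 1)
    (h2 : z * z = 1) (h1 : z ≠ 1) (k : ℕ) (hk : k = 3 ∨ k = 5)
    (S : Finset (Equiv.Perm (Fin 6)))
    (hS : ∀ c ∈ S, Equiv.Perm.sign c = 1 ∧ c ^ k = 1 ∧ c ≠ 1 ∧ z * c * z⁻¹ = c⁻¹) :
    S.card ≤ 16 := by
  obtain ⟨φ, hφz, hφs⟩ := a6_conj_equiv z hs h2 h1
  have key : ∀ c ∈ S, Equiv.Perm.sign (φ c) = 1 ∧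
      (φ c) ^ k = 1 ∧ φ c ≠ 1 ∧
      a6z0 * φ c * a6z0⁻¹ = (φ c)⁻¹ := by
    intro c hc
    obtain ⟨h1c, h2c, h3c, h4c⟩ := hS c hc
    refine ⟨?_, ?_, ?_, ?_⟩
    · rw [hφs]; exact h1c
    · rw [← map_pow, h2c, map_one]
    · exact fun h => h3c (φ.injective (h.trans (map_one _).symm))
    · have := congrArg φ h4c
      rwa [map_mul, map_mul, map_inv, map_inv, hφz] at this
  rw [← Finset.card_image_of_injective S φ.injective]
  rcases hk with rfl | rfl
  · rw [← a6z0_inv3_card]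
    apply Finset.card_le_card
    intro g' hg'
    obtain ⟨g, hg, rfl⟩ := Finset.mem_image.1 hg'
    rw [Finset.mem_filter]
    exact ⟨Finset.mem_univ _, key g hg⟩
  · rw [← a6z0_inv5_card]
    apply Finset.card_le_card
    intro g' hg'
    obtain ⟨g, hg, rfl⟩ := Finset.mem_image.1 hg'
    rw [Finset.mem_filter]
    exact ⟨Finset.mem_univ _, key g hg⟩

section transport

variable {M : Type*} [Group M] (ψ : M →* Equiv.Perm (Fin 6)) (hψ : Function.Injective ψ)
  (hev : ∀ g : M, Equiv.Perm.sign (ψ g) = 1)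

include hψ hev

theorem a6t_pow_cases (c : M) : c ^ 4 = 1 ∨ c ^ 3 = 1 ∨ c ^ 5 = 1 := by
  rcases a6_pow_cases (ψ c) (hev c) with h | h | h
  · exact Or.inl (hψ (by rw [map_pow, h, map_one]))
  · exact Or.inr (Or.inl (hψ (by rw [map_pow, h, map_one])))
  · exact Or.inr (Or.inr (hψ (by rw [map_pow, h, map_one])))

theorem a6t_cent_le (z : M) (h2 : z * z = 1) (h1 : z ≠ 1) (A : Type*) [Finite A]
    (f : A → M) (hf : Function.Injective f) (hA : ∀ a, f a * z = z * f a) :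
    Nat.card A ≤ 8 := by
  classical
  have := Fintype.ofFinite A
  have hinj : Function.Injective (fun a => ψ (f a)) := hψ.comp hf
  have h := a6_cent_le (ψ z) (hev z) (by rw [← map_mul, h2, map_one])
    (fun h => h1 (hψ (h.trans (map_one ψ).symm)))
    (Finset.univ.image (fun a => ψ (f a))) (by
      intro g hg
      obtain ⟨a, -, rfl⟩ := Finset.mem_image.1 hg
      exact ⟨hev _, by rw [← map_mul, hA a, map_mul]⟩)
  rwa [Finset.card_image_of_injective _ hinj, Finset.card_univ, ← Nat.card_eq_fintype_card] at h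

theorem a6t_inv_le (z : M) (h2 : z * z = 1) (h1 : z ≠ 1) (k : ℕ) (hk : k = 3 ∨ k = 5)
    (A : Type*) [Finite A]
    (f : A → M) (hf : Function.Injective f)
    (hA : ∀ a, f a ^ k = 1 ∧ f a ≠ 1 ∧ z * f a * z⁻¹ = (f a)⁻¹) :
    Nat.card A ≤ 16 := by
  classical
  have := Fintype.ofFinite A
  have hinj : Function.Injective (fun a => ψ (f a)) := hψ.comp hf
  have h := a6_inv_le (ψ z) (hev z) (by rw [← map_mul, h2, map_one])
    (fun h => h1 (hψ (h.trans (map_one ψ).symm))) k hk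
    (Finset.univ.image (fun a => ψ (f a))) (by
      intro g hg
      obtain ⟨a, -, rfl⟩ := Finset.mem_image.1 hg
      obtain ⟨ha1, ha2, ha3⟩ := hA a
      refine ⟨hev _, ?_, ?_, ?_⟩
      · rw [← map_pow, ha1, map_one]
      · exact fun h => ha2 (hψ (h.trans (map_one ψ).symm))
      · rw [← map_inv, ← map_inv, ← map_mul, ← map_mul, ha3])
  rwa [Finset.card_image_of_injective _ hinj, Finset.card_univ, ← Nat.card_eq_fintype_card] at h

end transport

end Cfsg.Agent.Helper16
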