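import Mathlib
import Cfsg.Agent.Helper16.A6Count

set_option autoImplicit false

namespace Cfsg.Agent.Helper16

open scoped Pointwise

theorem a6_card_alt : Nat.card (alternatingGroup (Fin 6)) = 360 := by
  have h := two_mul_card_alternatingGroup (α := Fin 6)
  rw [Fintype.card_perm, Fintype.card_fin] at h
  rw [Nat.card_eq_fintype_card]
  have h6 : Nat.factorial 6 = 720 := by decide
  omega

/-- a central involution of a Sylow 2-subgroup lying in the normal subgroup -/
theorem a6_central_invol {G : Type*} [Group G] [Finite G] (N : Subgroup G) [N.Normal]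
    (hN : Nat.card ↥N = 360) (hidx : N.index = 4) (H : Sylow 2 G)
    (hH : Nat.card ↥(H : Subgroup G) = 32) :
    ∃ z : G, z ∈ N ∧ z ∈ (H : Subgroup G) ∧ z ≠ 1 ∧ z * z = 1 ∧
      ∀ h ∈ (H : Subgroup G), h * z = z * h := by
  classical
  haveI : Fact (Nat.Prime 2) := ⟨Nat.prime_two⟩
  have step : ∃ z : G, z ∈ N ∧ z ∈ (H : Subgroup G) ∧ z ≠ 1 ∧
      ∀ h ∈ (H : Subgroup G), h * z = z * h := by
    have hcard : Nat.card ↥(N.subgroupOf (H : Subgroup G)) * N.relIndex (H : Subgroup G) = 32 := by
      have := (N.subgroupOf (H : Subgroup G)).card_mul_index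
      rw [hH] at this
      exact this
    have hrel : N.relIndex (H : Subgroup G) ∣ 4 :=
      hidx ▸ Subgroup.relIndex_dvd_index_of_normal N (H : Subgroup G)
    have h2K : 2 ∣ Nat.card ↥(N.subgroupOf (H : Subgroup G)) := by
      have hle : N.relIndex (H : Subgroup G) ≤ 4 := Nat.le_of_dvd (by norm_num) hrel
      have hpos : 0 < N.relIndex (H : Subgroup G) := Nat.pos_of_dvd_of_pos hrel (by norm_num)
      generalize N.relIndex (H : Subgroup G) = r at *
      interval_cases r <;> omega
    have hP : IsPGroup 2 (ConjAct ↥(H : Subgroup G)) := H.isPGroup'.of_equiv ConjAct.toConjAct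
    obtain ⟨b, hb, hb1⟩ := hP.exists_fixed_point_of_prime_dvd_card_of_fixed_point
      (α := ↥(N.subgroupOf (H : Subgroup G))) h2K
      (a := 1) (by intro g; exact smul_one g)
    refine ⟨((b : ↥(H : Subgroup G)) : G), Subgroup.mem_subgroupOf.1 b.2,
      (b : ↥(H : Subgroup G)).2, ?_, ?_⟩
    · intro h
      apply hb1
      apply Subtype.ext
      apply Subtype.ext
      simpa using h.symm
    · intro h hh
      have h1 := hb (ConjAct.toConjAct (⟨h, hh⟩ : ↥(H : Subgroup G)))
      have h2 := congrArg (fun t : ↥(N.subgroupOf (H : Subgroup G)) =>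
        ((t : ↥(H : Subgroup G)) : G)) h1
      simp only [ConjAct.Subgroup.val_conj_smul, ConjAct.toConjAct_smul] at h2
      have h3 : h * ((b : ↥(H : Subgroup G)) : G) * h⁻¹ = ((b : ↥(H : Subgroup G)) : G) := by
        simpa using h2
      calc h * ((b : ↥(H : Subgroup G)) : G) = h * ((b : ↥(H : Subgroup G)) : G) * h⁻¹ * h := by group
        _ = ((b : ↥(H : Subgroup G)) : G) * h := by rw [h3]
  obtain ⟨z, hzN, hzH, hz1, hzc⟩ := step
  have hord : orderOf z ∣ 2 ^ 5 := by
    have h1 : orderOf (⟨z, hzH⟩ : ↥(H : Subgroup G)) ∣ 32 := hH ▸ orderOf_dvd_natCard _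
    rwa [Subgroup.orderOf_mk] at h1
  obtain ⟨j, hj5, hj⟩ := (Nat.dvd_prime_pow Nat.prime_two).1 hord
  have hj0 : j ≠ 0 := by
    rintro rfl
    exact hz1 (orderOf_eq_one_iff.1 (by simpa using hj))
  obtain ⟨i, rfl⟩ := Nat.exists_eq_succ_of_ne_zero hj0
  refine ⟨z ^ 2 ^ i, N.pow_mem hzN _, (H : Subgroup G).pow_mem hzH _, ?_, ?_, ?_⟩
  · apply pow_ne_one_of_lt_orderOf (by positivity)
    rw [hj, pow_succ]
    have : 0 < 2 ^ i := by positivity
    omega
  · rw [← pow_add, ← two_mul, ← pow_succ', ← hj, pow_orderOf_eq_one]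
  · intro h hh
    exact ((Commute.pow_right (hzc h hh) _ : Commute h (z ^ 2 ^ i))).eq

theorem a6_sylow_meet {G : Type*} [Group G] [Finite G] (N : Subgroup G) [hNn : N.Normal]
    (e : N ≃* alternatingGroup (Fin 6)) (hidx : N.index = 4) (H : Sylow 2 G) (x : G) :
    (H : Subgroup G) ⊓ MulAut.conj x • (H : Subgroup G) ≠ ⊥ := by
  classical
  haveI : Fact (Nat.Prime 2) := ⟨Nat.prime_two⟩
  let ψ : ↥N →* Equiv.Perm (Fin 6) := (alternatingGroup (Fin 6)).subtype.comp e.toMonoidHom
  have hψ : Function.Injective ψ := (Subgroup.subtype_injective _).comp e.injective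
  have hev : ∀ g : ↥N, Equiv.Perm.sign (ψ g) = 1 := fun g =>
    Equiv.Perm.mem_alternatingGroup.1 (e g).2
  have hN : Nat.card ↥N = 360 := by rw [Nat.card_congr e.toEquiv, a6_card_alt]
  have hG : Nat.card G = 1440 := by rw [← N.card_mul_index, hN, hidx]
  have hH : Nat.card ↥(H : Subgroup G) = 32 := by
    obtain ⟨k, hk⟩ := (IsPGroup.iff_card).1 H.isPGroup'
    have hmul := (H : Subgroup G).card_mul_index
    rw [hG, hk] at hmul
    have hodd : ¬ 2 ∣ (H : Subgroup G).index := H.not_dvd_index
    have hk5 : k = 5 := by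
      by_contra hne
      rcases Nat.lt_or_gt_of_ne hne with hlt | hgt
      · apply hodd
        interval_cases k <;> norm_num at hmul <;> omega
      · have h64 : 2 ^ 6 ∣ 1440 := (pow_dvd_pow 2 hgt).trans (Dvd.intro _ hmul)
        norm_num at h64
    rw [hk, hk5]; norm_num
  obtain ⟨z, hzN, hzH, hz1, hz2, hzc⟩ := a6_central_invol N hN hidx H hH
  have hCH : ∀ g : G, g * z = z * g → g ∈ (H : Subgroup G) := by
    have hle : (H : Subgroup G) ≤ Subgroup.centralizer {z} := fun h hh =>
      Subgroup.mem_centralizer_singleton_iff.2 (hzc h hh)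
    have hcard : Nat.card ↥(Subgroup.centralizer ({z} : Set G)) ≤
        Nat.card ↥(H : Subgroup G) := by
      rw [hH]
      have h1 := (N.subgroupOf (Subgroup.centralizer ({z} : Set G))).card_mul_index
      have hrel : N.relIndex (Subgroup.centralizer ({z} : Set G)) ∣ 4 :=
        hidx ▸ Subgroup.relIndex_dvd_index_of_normal N _
      have hle4 : N.relIndex (Subgroup.centralizer ({z} : Set G)) ≤ 4 :=
        Nat.le_of_dvd (by norm_num) hrel
      have h8 : Nat.card ↥(N.subgroupOf (Subgroup.centralizer ({z} : Set G))) ≤ 8 := by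
        refine a6t_cent_le ψ hψ hev (⟨z, hzN⟩ : ↥N) (Subtype.ext hz2)
          (fun h => hz1 (congrArg Subtype.val h)) _
          (fun a => (⟨((a : ↥(Subgroup.centralizer ({z} : Set G))) : G),
            Subgroup.mem_subgroupOf.1 a.2⟩ : ↥N)) ?_ ?_
        · intro a b hab
          apply Subtype.ext; apply Subtype.ext
          have hab' := congrArg Subtype.val hab
          exact hab'
        · intro a
          apply Subtype.ext
          exact Subgroup.mem_centralizer_singleton_iff.1
            (a : ↥(Subgroup.centralizer ({z} : Set G))).2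
      have h1' : Nat.card ↥(Subgroup.centralizer ({z} : Set G)) =
          Nat.card ↥(N.subgroupOf (Subgroup.centralizer ({z} : Set G))) *
            N.relIndex (Subgroup.centralizer ({z} : Set G)) := h1.symm
      rw [h1']
      calc _ ≤ 8 * 4 := Nat.mul_le_mul h8 hle4
        _ = 32 := by norm_num
    have heq := Subgroup.eq_of_le_of_card_ge hle hcard
    intro g hg
    rw [heq]
    exact Subgroup.mem_centralizer_singleton_iff.2 hg
  obtain ⟨z', hz'⟩ : ∃ z' : G, z' = x * z * x⁻¹ := ⟨_, rfl⟩
  have hz'N : z' ∈ N := by rw [hz']; exact hNn.conj_mem z hzN x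
  have hz'2 : z' * z' = 1 := by
    rw [hz']
    calc x * z * x⁻¹ * (x * z * x⁻¹) = x * (z * z) * x⁻¹ := by group
      _ = 1 := by rw [hz2]; group
  have hz'1 : z' ≠ 1 := by
    intro h; apply hz1
    have h3 : z = x⁻¹ * z' * x := by rw [hz']; group
    rw [h3, h]; group
  have hCH' : ∀ g : G, g * z' = z' * g → g ∈ MulAut.conj x • (H : Subgroup G) := by
    intro g hg
    rw [Subgroup.mem_pointwise_smul_iff_inv_smul_mem]
    have h3 : (MulAut.conj x)⁻¹ • g = x⁻¹ * g * x := by
      simp [MulAut.smul_def]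
    rw [h3]
    apply hCH
    calc x⁻¹ * g * x * z = x⁻¹ * (g * (x * z * x⁻¹)) * x := by group
      _ = x⁻¹ * (x * z * x⁻¹ * g) * x := by rw [← hz', hg]
      _ = z * (x⁻¹ * g * x) := by group
  have hzi : z⁻¹ = z := inv_eq_of_mul_eq_one_left hz2
  have hz'i : z'⁻¹ = z' := inv_eq_of_mul_eq_one_left hz'2
  obtain ⟨c, hc⟩ : ∃ c : G, c = z * z' := ⟨_, rfl⟩
  have hcN : c ∈ N := by rw [hc]; exact N.mul_mem hzN hz'N
  have hzc' : z * c * z⁻¹ = c⁻¹ := by
    rw [hc, mul_inv_rev, hzi, hz'i, ← mul_assoc, hz2, one_mul]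
  have hz'c : z' * c * z'⁻¹ = c⁻¹ := by
    rw [hc, mul_inv_rev, hzi, hz'i, mul_assoc, mul_assoc, hz'2, mul_one]
  have main : ∃ w : G, w ≠ 1 ∧ w * z = z * w ∧ w * z' = z' * w := by
    have kcase : ∀ k : ℕ, (k = 3 ∨ k = 5) → c ^ k = 1 →
        ∃ w : G, w ≠ 1 ∧ w * z = z * w ∧ w * z' = z' * w := by
      intro k hk hck
      by_cases hc1 : c = 1
      · refine ⟨z, hz1, rfl, ?_⟩
        have h3 : z' = z := by
          have h4 : z' = z⁻¹ * c := by rw [hc]; group
          rw [h4, hc1, mul_one, hzi]
        rw [h3]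
      · by_contra hno
        push_neg at hno
        have hle : Nat.card ↥(H : Subgroup G) ≤ 16 := by
          refine a6t_inv_le ψ hψ hev (⟨z, hzN⟩ : ↥N) (Subtype.ext hz2)
            (fun h => hz1 (congrArg Subtype.val h)) k hk _
            (fun h : ↥(H : Subgroup G) =>
              (⟨(h : G) * c * (h : G)⁻¹, hNn.conj_mem c hcN h⟩ : ↥N)) ?_ ?_
          · intro h₁ h₂ h12
            have h12' : (h₁ : G) * c * (h₁ : G)⁻¹ = (h₂ : G) * c * (h₂ : G)⁻¹ :=
              congrArg Subtype.val h12
            by_contra hne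
            obtain ⟨w, hw⟩ : ∃ w : G, w = (h₂ : G)⁻¹ * (h₁ : G) := ⟨_, rfl⟩
            have hw1 : w ≠ 1 := by
              intro h; apply hne; apply Subtype.ext
              have h5 : (h₁ : G) = (h₂ : G) * w := by rw [hw]; group
              rw [h5, h, mul_one]
            have hwH : w ∈ (H : Subgroup G) := by
              rw [hw]
              exact (H : Subgroup G).mul_mem ((H : Subgroup G).inv_mem h₂.2) h₁.2
            have hwz : w * z = z * w := hzc w hwH
            have hwc : w * c = c * w := by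
              calc w * c = (h₂ : G)⁻¹ * ((h₁ : G) * c * (h₁ : G)⁻¹) * (h₁ : G) := by
                    rw [hw]; group
                _ = (h₂ : G)⁻¹ * ((h₂ : G) * c * (h₂ : G)⁻¹) * (h₁ : G) := by rw [h12']
                _ = c * w := by rw [hw]; group
            apply hno w hw1 hwz
            have hz'c2 : z' = z * c := by rw [hc, ← mul_assoc, hz2, one_mul]
            rw [hz'c2]
            calc w * (z * c) = (w * z) * c := by group
              _ = z * w * c := by rw [hwz]
              _ = z * (w * c) := by group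
              _ = z * (c * w) := by rw [hwc]
              _ = z * c * w := by group
          · intro h
            refine ⟨?_, ?_, ?_⟩
            · apply Subtype.ext
              simp only [Subgroup.coe_pow, Subgroup.coe_one]
              rw [conj_pow, hck]; group
            · intro h1; apply hc1
              have h2 : (h : G) * c * (h : G)⁻¹ = 1 := congrArg Subtype.val h1
              calc c = (h : G)⁻¹ * ((h : G) * c * (h : G)⁻¹) * (h : G) := by group
                _ = 1 := by rw [h2]; group
            · apply Subtype.ext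
              simp only [Subgroup.coe_mul, Subgroup.coe_inv]
              have hhz : (h : G) * z = z * (h : G) := hzc h h.2
              have hhz' : (h : G)⁻¹ * z⁻¹ = z⁻¹ * (h : G)⁻¹ := by
                rw [← mul_inv_rev, ← mul_inv_rev, hhz]
              calc z * ((h : G) * c * (h : G)⁻¹) * z⁻¹
                  = (z * (h : G)) * c * ((h : G)⁻¹ * z⁻¹) := by group
                _ = ((h : G) * z) * c * (z⁻¹ * (h : G)⁻¹) := by rw [hhz, hhz']
                _ = (h : G) * (z * c * z⁻¹) * (h : G)⁻¹ := by group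
                _ = (h : G) * c⁻¹ * (h : G)⁻¹ := by rw [hzc']
                _ = ((h : G) * c * (h : G)⁻¹)⁻¹ := by group
        rw [hH] at hle
        omega
    rcases a6t_pow_cases ψ hψ hev (⟨c, hcN⟩ : ↥N) with h4 | h3 | h5
    · have h4' : c ^ 4 = 1 := by
        have := congrArg Subtype.val h4
        simpa using this
      have e2 : c * c = c⁻¹ * c⁻¹ := by
        have h6 : c * c * (c * c) = 1 := by
          have h7 : c ^ 4 = c * c * (c * c) := by simp [pow_succ, mul_assoc]
          rw [← h7, h4']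
        have h8 := eq_inv_of_mul_eq_one_left h6
        rw [mul_inv_rev] at h8
        exact h8
      by_cases hc2 : c * c = 1
      · refine ⟨z', hz'1, ?_, rfl⟩
        have h6 : z * z' * (z * z') = 1 := by rw [← hc]; exact hc2
        calc z' * z = z⁻¹ * (z * z' * (z * z')) * z'⁻¹ := by group
          _ = z * z' := by rw [h6, hzi, hz'i, mul_one]
      · have comm : ∀ t : G, t * c * t⁻¹ = c⁻¹ → c * c * t = t * (c * c) := by
          intro t ht
          have e1 : t * c = c⁻¹ * t := by rw [← ht]; group
          calc c * c * t = c⁻¹ * c⁻¹ * t := by rw [e2]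
            _ = c⁻¹ * (c⁻¹ * t) := by group
            _ = c⁻¹ * (t * c) := by rw [e1]
            _ = (c⁻¹ * t) * c := by group
            _ = t * c * c := by rw [← e1]
            _ = t * (c * c) := by group
        exact ⟨c * c, hc2, comm z hzc', comm z' hz'c⟩
    · exact kcase 3 (Or.inl rfl) (by have := congrArg Subtype.val h3; simpa using this)
    · exact kcase 5 (Or.inr rfl) (by have := congrArg Subtype.val h5; simpa using this)
  obtain ⟨w, hw1, hwz, hwz'⟩ := main
  intro hbot
  apply hw1
  have hmem : w ∈ (H : Subgroup G) ⊓ MulAut.conj x • (H : Subgroup G) :=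
    ⟨hCH w hwz, hCH' w hwz'⟩
  rw [hbot] at hmem
  exact Subgroup.mem_bot.1 hmem

end Cfsg.Agent.Helper16
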