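import Cfsg.Agent.S3839
import Cfsg.Agent.Helper12.AlpInd
import Cfsg.Agent.Helper12.FamFusion
import Cfsg.Agent.Helper16.YMinimal3
import Cfsg.Agent.Helper16.SylowNormal
import Cfsg.Agent.Helper16.PReducedSub

set_option autoImplicit false

namespace Cfsg.Agent.Helper16

variable {G : Type*} [Group G]

/-- decomposition `X = P C` for a Sylow-type `P ≤ X` and `C ⊴ X` with `X / C` a `p`-group -/
theorem exists_mul_of_relIndex [Finite G] {p : ℕ} [Fact p.Prime] {X P C : Subgroup G}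
    (hP : IsPGroup p P) (hidx : ¬ p ∣ P.relIndex X) (hCX : C ≤ X)
    (hXC : X ≤ Subgroup.normalizer (C : Set G))
    (hpow : ∀ m ∈ X, ∃ k : ℕ, m ^ (p ^ k) ∈ C) {m : G} (hm : m ∈ X) :
    ∃ s ∈ P, ∃ c ∈ C, m = s * c := by
  have hP' : IsPGroup p ↥(P.subgroupOf X) := hP.comap_subtype
  haveI : (C.subgroupOf X).Normal := (Subgroup.normal_subgroupOf_iff_le_normalizer hCX).mpr hXC
  obtain ⟨s, hs, c, hc, he⟩ := exists_mul_of_pow_mem (hP'.toSylow hidx) (C.subgroupOf X)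
    (fun y => by
      obtain ⟨k, hk⟩ := hpow y y.2
      exact ⟨k, by rw [Subgroup.mem_subgroupOf, Subgroup.coe_pow]; exact hk⟩) ⟨m, hm⟩
  have hs' : s ∈ P.subgroupOf X := hs
  exact ⟨s, Subgroup.mem_subgroupOf.mp hs', c, Subgroup.mem_subgroupOf.mp hc,
    congrArg Subtype.val he⟩

/-- an abelian strongly closed subgroup `A` of a Sylow `p`-subgroup `S`: `N_G(A)` controls
strong fusion in `S` (right-conjugation form) -/
theorem stronglyClosed_controls [Finite G] {p : ℕ} [Fact p.Prime] (S : Sylow p G)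
    (A : Subgroup G) (hA : ∀ a ∈ A, ∀ b ∈ A, a * b = b * a)
    (hsc : Cfsg.IsStronglyClosed A (S : Subgroup G)) :
    ∀ (X : Set G) (g : G), X ⊆ (S : Subgroup G) → Helper12.cj g X ⊆ (S : Subgroup G) →
      ∃ n ∈ Subgroup.normalizer (A : Set G), ∀ a ∈ X, n⁻¹ * a * n = g⁻¹ * a * g := by
  obtain ⟨hAS, hcl⟩ := hsc
  have hSp : IsPGroup p ↥(S : Subgroup G) := S.isPGroup'
  have hSA : (S : Subgroup G) ≤ Subgroup.normalizer (A : Set G) := by
    apply le_normalizer_of_conj_mem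
    intro s hs a ha
    exact hcl a ha s ((S : Subgroup G).mul_mem ((S : Subgroup G).mul_mem hs (hAS ha))
      ((S : Subgroup G).inv_mem hs))
  apply Helper12.alperin_induction_set S (fun X g => ∃ n ∈ Subgroup.normalizer (A : Set G),
    ∀ a ∈ X, n⁻¹ * a * n = g⁻¹ * a * g) ?_ ?_ ?_ Set.univ ?_ ?_
  · -- restriction
    rintro X Y g ⟨n, hn, h⟩ hYX
    exact ⟨n, hn, fun a ha => h a (hYX ha)⟩
  · -- composition
    rintro X g h ⟨n₁, hn₁, h1⟩ ⟨n₂, hn₂, h2⟩
    refine ⟨n₁ * n₂, Subgroup.mul_mem _ hn₁ hn₂, fun a ha => ?_⟩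
    have h3 := h2 (g⁻¹ * a * g) (Helper12.conj_mem_cj ha)
    rw [← h1 a ha] at h3
    calc (n₁ * n₂)⁻¹ * a * (n₁ * n₂) = n₂⁻¹ * (n₁⁻¹ * a * n₁) * n₂ := by group
      _ = h⁻¹ * (n₁⁻¹ * a * n₁) * h := h3
      _ = h⁻¹ * (g⁻¹ * a * g) * h := by rw [h1 a ha]
      _ = (g * h)⁻¹ * a * (g * h) := by group
  · -- inverses
    rintro X g ⟨n, hn, h⟩
    refine ⟨n⁻¹, Subgroup.inv_mem _ hn, ?_⟩
    rintro b ⟨a, ha, rfl⟩
    show n⁻¹⁻¹ * (g⁻¹ * a * g) * n⁻¹ = g⁻¹⁻¹ * (g⁻¹ * a * g) * g⁻¹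
    calc n⁻¹⁻¹ * (g⁻¹ * a * g) * n⁻¹ = n * (n⁻¹ * a * n) * n⁻¹ := by rw [h a ha, inv_inv]
      _ = a := by group
      _ = g⁻¹⁻¹ * (g⁻¹ * a * g) * g⁻¹ := by group
  · -- fully normalized conjugates
    intro T hTS
    obtain ⟨x, hx1, hx2⟩ := Helper12.exists_fully_normalized S (hSp.to_le hTS)
    exact ⟨Helper12.cjs x T, Set.mem_univ _, hx1, ⟨x, rfl⟩, hx2⟩
  · -- base step
    intro U _ hUS hidx IH h hh
    by_cases hAU : A ≤ U
    · refine ⟨h, ?_, fun a _ => rfl⟩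
      have key : ∀ y ∈ Subgroup.normalizer (U : Set G), ∀ a ∈ A, y * a * y⁻¹ ∈ A := by
        intro y hy a ha
        exact hcl a ha y (hUS ((Subgroup.mem_normalizer_iff.mp hy a).mp (hAU ha)))
      rw [Subgroup.mem_normalizer_iff]
      intro a
      constructor
      · exact key h hh a
      · intro ha
        have h0 := key h⁻¹ (Subgroup.inv_mem _ hh) _ ha
        have e : h⁻¹ * (h * a * h⁻¹) * h⁻¹⁻¹ = a := by group
        rwa [e] at h0
    · have hUA : U ≤ Subgroup.normalizer (A : Set G) := hUS.trans hSA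
      have hNAS : A ⊓ Subgroup.normalizer (U : Set G) ≤ (S : Subgroup G) := inf_le_left.trans hAS
      have hT'S : U ⊔ (A ⊓ Subgroup.normalizer (U : Set G)) ≤ (S : Subgroup G) :=
        sup_le hUS hNAS
      have hcard : Nat.card ↥U < Nat.card ↥(U ⊔ (A ⊓ Subgroup.normalizer (U : Set G))) := by
        have h1 := Helper12.card_lt_card_inf_normalizer (p := p) (S := U ⊔ A) (T := U)
          (hSp.to_le (sup_le hUS hAS)) le_sup_left
          (fun h0 => hAU (by rw [h0]; exact le_sup_right))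
        have h2 : (U ⊔ A) ⊓ Subgroup.normalizer (U : Set G) ≤
            U ⊔ (A ⊓ Subgroup.normalizer (U : Set G)) := by
          intro x hx
          obtain ⟨u, hu, a, ha, hxe⟩ := mem_sup_of_le_normalizer hUA hx.1
          have haN : a ∈ Subgroup.normalizer (U : Set G) := by
            have e : a = u⁻¹ * x := by rw [hxe]; group
            rw [e]
            exact Subgroup.mul_mem _ (Subgroup.inv_mem _ (Subgroup.le_normalizer hu)) hx.2
          rw [hxe]
          exact Subgroup.mul_mem _ (Subgroup.mem_sup_left hu)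
            (Subgroup.mem_sup_right (Subgroup.mem_inf.mpr ⟨ha, haN⟩))
        exact lt_of_lt_of_le h1 (Subgroup.card_le_of_le h2)
      -- the stability group of the chain `U ≥ U ∩ A ≥ 1`
      have hUAinv : ∀ y ∈ Subgroup.normalizer (U : Set G), ∀ q ∈ U ⊓ A,
          y * q * y⁻¹ ∈ U ⊓ A := by
        intro y hy q hq
        have h1 : y * q * y⁻¹ ∈ U := (Subgroup.mem_normalizer_iff.mp hy q).mp hq.1
        exact Subgroup.mem_inf.mpr ⟨h1, hcl q hq.2 y (hUS h1)⟩
      have hXmem : ∀ y : G, y ∈ Cfsg.Agent.S3839.stabChain U (U ⊓ A) ↔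
          (y ∈ Subgroup.normalizer (U : Set G) ∧ (∀ q ∈ U ⊓ A, y * q * y⁻¹ = q) ∧
            (∀ q ∈ U, y * q * y⁻¹ * q⁻¹ ∈ U ⊓ A)) := fun y => Iff.rfl
      have hXN : Cfsg.Agent.S3839.stabChain U (U ⊓ A) ≤ Subgroup.normalizer (U : Set G) :=
        fun y hy => ((hXmem y).mp hy).1
      have hXnorm : ∀ γ ∈ Subgroup.normalizer (U : Set G),
          ∀ y ∈ Cfsg.Agent.S3839.stabChain U (U ⊓ A),
          γ * y * γ⁻¹ ∈ Cfsg.Agent.S3839.stabChain U (U ⊓ A) := by
        intro γ hγ y hy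
        obtain ⟨hy1, hy2, hy3⟩ := (hXmem y).mp hy
        have hγi : γ⁻¹ ∈ Subgroup.normalizer (U : Set G) := Subgroup.inv_mem _ hγ
        rw [hXmem]
        refine ⟨Subgroup.mul_mem _ (Subgroup.mul_mem _ hγ hy1) hγi, ?_, ?_⟩
        · intro q hq
          have h2 := hy2 _ (hUAinv γ⁻¹ hγi q hq)
          calc γ * y * γ⁻¹ * q * (γ * y * γ⁻¹)⁻¹
              = γ * (y * (γ⁻¹ * q * γ⁻¹⁻¹) * y⁻¹) * γ⁻¹ := by group
            _ = γ * (γ⁻¹ * q * γ⁻¹⁻¹) * γ⁻¹ := by rw [h2]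
            _ = q := by group
        · intro q hq
          have hq' : γ⁻¹ * q * γ⁻¹⁻¹ ∈ U := (Subgroup.mem_normalizer_iff.mp hγi q).mp hq
          have h4 := hUAinv γ hγ _ (hy3 _ hq')
          have e : γ * y * γ⁻¹ * q * (γ * y * γ⁻¹)⁻¹ * q⁻¹ =
              γ * (y * (γ⁻¹ * q * γ⁻¹⁻¹) * y⁻¹ * (γ⁻¹ * q * γ⁻¹⁻¹)⁻¹) * γ⁻¹ := by group
          rw [e]; exact h4
      have hNAX : A ⊓ Subgroup.normalizer (U : Set G) ≤ Cfsg.Agent.S3839.stabChain U (U ⊓ A) := by
        intro a ha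
        obtain ⟨haA, haN⟩ := Subgroup.mem_inf.mp ha
        rw [hXmem]
        refine ⟨haN, ?_, ?_⟩
        · intro q hq
          have h0 := hA a haA q hq.2
          calc a * q * a⁻¹ = q * a * a⁻¹ := by rw [h0]
            _ = q := by group
        · intro q hq
          refine Subgroup.mem_inf.mpr ⟨?_, ?_⟩
          · exact U.mul_mem ((Subgroup.mem_normalizer_iff.mp haN q).mp hq) (U.inv_mem hq)
          · have h1 : q * a⁻¹ * q⁻¹ ∈ A :=
              (Subgroup.mem_normalizer_iff.mp (hUA hq) a⁻¹).mp (A.inv_mem haA)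
            have e : a * q * a⁻¹ * q⁻¹ = a * (q * a⁻¹ * q⁻¹) := by group
            rw [e]; exact A.mul_mem haA h1
      have hXcent : ∀ y ∈ Cfsg.Agent.S3839.stabChain U (U ⊓ A), (orderOf y).Coprime p →
          ∀ q ∈ U, y * q * y⁻¹ = q := fun y hy hc =>
        Cfsg.Agent.S3839.stabChain_centralizes U (U ⊓ A) (hSp.to_le (inf_le_left.trans hUS))
          y hy hc
      generalize Cfsg.Agent.S3839.stabChain U (U ⊓ A) = X at hXN hXnorm hNAX hXcent
      -- the conjugate of `N_A(U)` by `h` lies in `X`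
      have hQX : Helper12.cjs h (A ⊓ Subgroup.normalizer (U : Set G)) ≤ X := by
        intro b hb
        rw [Helper12.mem_cjs_iff] at hb
        have h0 := hXnorm h⁻¹ (Subgroup.inv_mem _ hh) _ (hNAX hb)
        have e : h⁻¹ * (h * b * h⁻¹) * h⁻¹⁻¹ = b := by group
        rwa [e] at h0
      have hQp : IsPGroup p ↥(Helper12.cjs h (A ⊓ Subgroup.normalizer (U : Set G))) :=
        Helper12.isPGroup_cjs (hSp.to_le hNAS) h
      have hP₀p : IsPGroup p ↥(((S : Subgroup G) ⊓ Subgroup.normalizer (U : Set G)) ⊓ X) :=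
        hSp.to_le (inf_le_left.trans inf_le_left)
      have hidxX : ¬ p ∣
          (((S : Subgroup G) ⊓ Subgroup.normalizer (U : Set G)) ⊓ X).relIndex X :=
        Cfsg.Agent.S3839.inf_sylow_type_normal (hSp.to_le inf_le_left) hidx hXN hXnorm
      obtain ⟨m, hm, hmq⟩ := Helper12.exists_conj_le_of_relIndex hP₀p hidxX hQp hQX
      have hpow : ∀ y ∈ X, ∃ k : ℕ, y ^ (p ^ k) ∈ X ⊓ Subgroup.centralizer (U : Set G) := by
        intro y hy
        obtain ⟨e, he⟩ := exists_pow_coprime (p := p) y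
        refine ⟨e, Subgroup.mem_inf.mpr ⟨X.pow_mem hy _, ?_⟩⟩
        rw [Subgroup.mem_centralizer_iff]
        intro q hq
        have h0 := hXcent _ (X.pow_mem hy _) he q hq
        calc q * y ^ p ^ e = (y ^ p ^ e * q * (y ^ p ^ e)⁻¹) * y ^ p ^ e := by rw [h0]
          _ = y ^ p ^ e * q := by group
      obtain ⟨s, hs, c, hc, hmsc⟩ := exists_mul_of_relIndex hP₀p hidxX inf_le_left
        (le_normalizer_inf' Subgroup.le_normalizer
          (hXN.trans (normalizer_le_normalizer_centralizer U))) hpow hm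
      have hsS : s ∈ (S : Subgroup G) := hs.1.1
      have hcU : ∀ u ∈ U, c * u * c⁻¹ = u := by
        intro u hu
        have h0 := Subgroup.mem_centralizer_iff.mp hc.2 u hu
        calc c * u * c⁻¹ = u * c * c⁻¹ := by rw [h0]
          _ = u := by group
      have hcQ : ∀ q ∈ Helper12.cjs h (A ⊓ Subgroup.normalizer (U : Set G)),
          c * q * c⁻¹ ∈ (S : Subgroup G) := by
        intro q hq
        have h0 : m * q * m⁻¹ ∈ (S : Subgroup G) := (hmq q hq).1.1
        have e : c * q * c⁻¹ = s⁻¹ * (m * q * m⁻¹) * s := by rw [hmsc]; group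
        rw [e]
        exact Subgroup.mul_mem _ (Subgroup.mul_mem _ (Subgroup.inv_mem _ hsS) h0) hsS
      -- apply the inductive hypothesis to `U N_A(U)` and `h c⁻¹`
      have hcj : Helper12.cj (h * c⁻¹)
          ((U ⊔ (A ⊓ Subgroup.normalizer (U : Set G)) : Subgroup G) : Set G) ⊆
          (S : Subgroup G) := by
        apply Helper12.cj_subset_of_cjs_le
        unfold Helper12.cjs
        rw [Subgroup.map_sup]
        apply sup_le
        · rintro _ ⟨u, hu, rfl⟩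
          show (h * c⁻¹)⁻¹ * u * (h * c⁻¹)⁻¹⁻¹ ∈ (S : Subgroup G)
          have h1 : h⁻¹ * u * h ∈ U := (Subgroup.mem_normalizer_iff''.mp hh u).mp hu
          have e : (h * c⁻¹)⁻¹ * u * (h * c⁻¹)⁻¹⁻¹ = c * (h⁻¹ * u * h) * c⁻¹ := by group
          rw [e, hcU _ h1]
          exact hUS h1
        · rintro _ ⟨a, ha, rfl⟩
          show (h * c⁻¹)⁻¹ * a * (h * c⁻¹)⁻¹⁻¹ ∈ (S : Subgroup G)
          have h1 : h⁻¹ * a * h ∈ Helper12.cjs h (A ⊓ Subgroup.normalizer (U : Set G)) := by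
            rw [Helper12.mem_cjs_iff]
            have e : h * (h⁻¹ * a * h) * h⁻¹ = a := by group
            rw [e]; exact ha
          have e : (h * c⁻¹)⁻¹ * a * (h * c⁻¹)⁻¹⁻¹ = c * (h⁻¹ * a * h) * c⁻¹ := by group
          rw [e]
          exact hcQ _ h1
      obtain ⟨n, hn, hnt⟩ := IH _ hT'S hcard (h * c⁻¹) hcj
      refine ⟨n, hn, fun u hu => ?_⟩
      have h1 : h⁻¹ * u * h ∈ U := (Subgroup.mem_normalizer_iff''.mp hh u).mp hu
      rw [hnt u (Subgroup.mem_sup_left hu)]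
      have e : (h * c⁻¹)⁻¹ * u * (h * c⁻¹) = c * (h⁻¹ * u * h) * c⁻¹ := by group
      rw [e, hcU _ h1]

end Cfsg.Agent.Helper16
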